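import Cfsg.Agent.R2.T1.T1p.Base

/-!
# T1 (S5771, p = 2, n = 8): the pattern `4 + 4* + 6⁸` is impossible (helper24)

* `false_of` : p = 2, n = 8, the elements of type `3`, `3²`, `5`, `5 3` with 32, 20, 16, 0 fixed weights: contradiction.
-/

set_option autoImplicit false
set_option maxRecDepth 100000

namespace Cfsg.Agent.R2.T1.T1p

open Cfsg Cfsg.Lie Module Equiv Equiv.Perm
open Cfsg.Agent.H943.E7V.Block (D1 rho)
open Cfsg.Agent.H952.F4 (ev es MaxAlt)
open Cfsg.Agent.R2.T1 Cfsg.Agent.R2.T1.Mu2 Cfsg.Agent.R2.PX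

universe u
variable {F : Type u} [Field F]

/-! ### the moment map on the translates -/

section polar
variable {ψ : A8 →* Gh F} {u : D1 → F}

/-- polar form of the moment map -/
noncomputable def Pf (x y : D1 → F) (z : chevE7.Idx → F) : F := sf F y (Matrix.mulVec (del F z) x)

theorem Pf_eq (x y : D1 → F) (z : chevE7.Idx → F) : Pf x y z = Mu F (x + y) z - Mu F x z - Mu F y z := by
  rw [Mu_add]; unfold Pf; ring

theorem Pf_comm (x y : D1 → F) (z : chevE7.Idx → F) : Pf x y z = Pf y x z := by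
  rw [Pf_eq, Pf_eq, add_comm x y]; ring

theorem Pf_add_right (x y y' : D1 → F) (z : chevE7.Idx → F) : Pf x (y + y') z = Pf x y z + Pf x y' z := by
  unfold Pf; rw [map_add, LinearMap.add_apply]

theorem Pf_smul_right (c : F) (x y : D1 → F) (z : chevE7.Idx → F) : Pf x (c • y) z = c * Pf x y z := by
  unfold Pf; rw [map_smul, LinearMap.smul_apply, smul_eq_mul]

/-- all values of the moment map on the translates are equal -/
theorem Mu_W (hu : u ∈ US ψ) (heq : Mu F (W ψ u 6 7) = Mu F (W ψ u 7 5)) {i j : Fin 8} (hij : i ≠ j) :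
    Mu F (W ψ u i j) = Mu F u := by
  have step : ∀ a b c : Fin 8, a ≠ b → b ≠ c → a ≠ c → Mu F (W ψ u a b) = Mu F (W ψ u b c) := by
    intro a b c hab hbc hac
    obtain ⟨g, g5, g6, g7⟩ := exists3 (i := c) (j := a) (k := b) hac.symm hab hbc.symm
    have e1 : W ψ u a b = V F (ψ g) (W ψ u 6 7) := by rw [W_act hu g (by decide), g6, g7]
    have e2 : W ψ u b c = V F (ψ g) (W ψ u 7 5) := by rw [W_act hu g (by decide), g7, g5]
    rw [e1, e2, Mu_V', Mu_V', heq]
  obtain ⟨c, d, c1, c2, c3, c4, d1, d2, d3, d4, hcd⟩ := two_more4 6 7 i j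
  have h1 := step 6 7 c (by decide) c2.symm c1.symm
  have h2 := step 7 c d c2.symm hcd d2.symm
  have h3 := step c d i hcd d3 c3
  have h4 := step d i j d3 hij d4
  rw [← h4, ← h3, ← h2, ← h1, W_self hu]

/-- the polar form vanishes on the translates -/
theorem Pf_W (h2 : (2 : F) = 0) (h53 : ∀ a : A8, (a : Perm (Fin 8)).cycleType = {5, 3} → ev (V F (ψ a)) 1 = 0)
    (hu : u ∈ US ψ) (hz : ∀ i j : Fin 8, i ≠ j → Mu F (W ψ u i j) = 0) {i j k l : Fin 8} (hij : i ≠ j) (hkl : k ≠ l)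
    (z : chevE7.Idx → F) : Pf (W ψ u i j) (W ψ u k l) z = 0 := by
  have hneg : ∀ v : D1 → F, -v = v := fun v => neg_eq_of_add_eq_zero_left (add_self_zero h2 v)
  have hsym : ∀ i j : Fin 8, i ≠ j → W ψ u i j = W ψ u j i := fun i j h => W_symm h2 h53 hu h
  have hself : ∀ i j : Fin 8, i ≠ j → Pf (W ψ u i j) (W ψ u i j) z = 0 := by
    intro i j h
    rw [Pf_eq, add_self_zero h2, Mu_zero, hz i j h, LinearMap.zero_apply]
    ring
  have hadd : ∀ i j k : Fin 8, i ≠ j → j ≠ k → i ≠ k → W ψ u i j + W ψ u j k = W ψ u i k := by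
    intro i j k h1 h3 h4
    have h5 := tri h53 hu h1 h3 h4
    rw [hsym i k h4, ← hneg (W ψ u k i)]
    exact eq_neg_of_add_eq_zero_left h5
  have hshare : ∀ i j k : Fin 8, i ≠ j → j ≠ k → i ≠ k → Pf (W ψ u i j) (W ψ u j k) z = 0 := by
    intro i j k h1 h3 h4
    rw [Pf_eq, hadd i j k h1 h3 h4, hz i k h4, hz i j h1, hz j k h3, LinearMap.zero_apply]
    ring
  by_cases hki : k = i
  · subst hki
    by_cases hlj : l = j
    · subst hlj; exact hself k l hij
    · rw [hsym k j hij]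
      exact hshare j k l hij.symm hkl (Ne.symm hlj)
  by_cases hkj : k = j
  · subst hkj
    by_cases hli : l = i
    · subst hli; rw [hsym k l hkl]; exact hself l k hij
    · exact hshare i k l hij hkl (Ne.symm hli)
  by_cases hli : l = i
  · subst hli
    rw [hsym k l hkl, hsym l j hij]
    exact hshare j l k hij.symm (Ne.symm hki) (Ne.symm hkj)
  by_cases hlj : l = j
  · subst hlj
    rw [hsym k l hkl]
    exact hshare i l k hij (Ne.symm hkj) (Ne.symm hki)
  rw [← hadd k j l hkj (Ne.symm hlj) hkl, Pf_add_right, hshare i j l hij (Ne.symm hlj) (Ne.symm hli), add_zero,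
    hsym k j hkj]
  exact hshare i j k hij (Ne.symm hkj) (Ne.symm hki)

end polar

/-! ### the main argument -/

section main
variable {H : Subgroup ↥(chevE7.group F)} {φ : A8 →* ↥(chevE7.group F)} {ψ : A8 →* Gh F}

/-- the final contradiction from a vector with equal values of the moment map -/
theorem final [Finite F] (h2 : (2 : F) = 0) (hM : MaxAlt H 8 φ) (hψ : Lift φ ψ)
    (h53 : ∀ a : A8, (a : Perm (Fin 8)).cycleType = {5, 3} → ev (V F (ψ a)) 1 = 0) {u : D1 → F} (hu : u ∈ US ψ)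
    (hu0 : u ≠ 0) (hH : ∀ g : Gh F, ad F g ∈ H → ∃ π : A8, V F g u = V F (ψ π) u)
    (heq : Mu F (W ψ u 6 7) = Mu F (W ψ u 7 5)) : False := by
  have hne67 : ∀ π : A8, (π : Perm (Fin 8)) 6 ≠ (π : Perm (Fin 8)) 7 := fun π h =>
    absurd ((π : Perm (Fin 8)).injective h) (by decide)
  have hVW : ∀ π : A8, V F (ψ π) u = W ψ u ((π : Perm (Fin 8)) 6) ((π : Perm (Fin 8)) 7) := fun π => W_eq hu rfl rfl
  have hcard := hM.card
  rw [if_neg (by norm_num)] at hcard
  have h8 : Nat.factorial 8 = 40320 := rfl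
  rw [h8] at hcard
  have hq := two_le_card (F := F)
  have hMu0 : Mu F u = 0 := by
    apply func_zero hM.coatom
    · have h3 : 2 ^ 76 ≤ Nat.card F ^ 76 := Nat.pow_le_pow_left hq 76
      norm_num at h3
      omega
    · intro g hg
      obtain ⟨π, hπ⟩ := hH g hg
      rw [hπ, hVW, Mu_W hu heq (hne67 π)]
  have hz : ∀ i j : Fin 8, i ≠ j → Mu F (W ψ u i j) = 0 := fun i j hij => by rw [Mu_W hu heq hij, hMu0]
  set S : Submodule F (D1 → F) := Submodule.span F (Set.range fun π : A8 => V F (ψ π) u) with hS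
  have hmem : ∀ π : A8, V F (ψ π) u ∈ S := fun π => Submodule.subset_span ⟨π, rfl⟩
  have hP1 : ∀ (π : A8) (y : D1 → F), y ∈ S → ∀ z, Pf (V F (ψ π) u) y z = 0 := by
    intro π y hy z
    rw [hS] at hy
    induction hy using Submodule.span_induction with
    | mem y hy =>
      obtain ⟨π', rfl⟩ := hy
      show Pf (V F (ψ π) u) (V F (ψ π') u) z = 0
      rw [hVW, hVW]
      exact Pf_W h2 h53 hu hz (hne67 π) (hne67 π') z
    | zero => unfold Pf; rw [map_zero, LinearMap.zero_apply]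
    | add a b _ _ ha hb => rw [Pf_add_right, ha, hb, add_zero]
    | smul c a _ ha => rw [Pf_smul_right, ha, mul_zero]
  have hP : ∀ x ∈ S, ∀ y ∈ S, ∀ z, Pf x y z = 0 := by
    intro x hx y hy z
    rw [hS] at hx
    induction hx using Submodule.span_induction with
    | mem x hx =>
      obtain ⟨π, rfl⟩ := hx
      exact hP1 π y hy z
    | zero => rw [Pf_comm]; unfold Pf; rw [map_zero, LinearMap.zero_apply]
    | add a b _ _ ha hb => rw [Pf_comm, Pf_add_right, Pf_comm y a, Pf_comm y b, ha, hb, add_zero]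
    | smul c a _ ha => rw [Pf_comm, Pf_smul_right, Pf_comm y a, ha, mul_zero]
  have hsing : ∀ x ∈ S, Sing x := by
    intro x hx
    rw [hS] at hx
    induction hx using Submodule.span_induction with
    | mem x hx =>
      obtain ⟨π, rfl⟩ := hx
      show Mu F (V F (ψ π) u) = 0
      rw [hVW]
      exact hz _ _ (hne67 π)
    | zero => exact Mu_zero
    | add a b ha hb ha' hb' =>
      refine LinearMap.ext fun z => ?_
      have h3 := hP a ha b hb z
      rw [Pf_eq, ha', hb', LinearMap.zero_apply, sub_zero, sub_zero] at h3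
      exact h3
    | smul c a _ ha => exact ha.smul c
  refine ts hM.coatom ?_ (W := S) ?_ ?_ hsing
  · have h3 : 2 ^ 27 ≤ Nat.card F ^ 27 := Nat.pow_le_pow_left hq 27
    norm_num at h3
    omega
  · intro g hg w hw
    obtain ⟨σ, hσ⟩ := perm_lift h2 hM hψ hg
    obtain ⟨π, hπ⟩ := hH g hg
    rw [hS] at hw
    induction hw using Submodule.span_induction with
    | mem x hx =>
      obtain ⟨a, rfl⟩ := hx
      have hconj : σ * (a : Perm (Fin 8)) * σ⁻¹ ∈ alternatingGroup (Fin 8) := by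
        rw [mem_alternatingGroup, Perm.sign_mul, Perm.sign_mul, mem_alternatingGroup.1 a.2, mul_one, Perm.sign_inv,
          Int.units_mul_self]
      have h3 := hσ a ⟨_, hconj⟩ rfl
      have h4 : V F g (V F (ψ a) u) = V F (ψ (⟨_, hconj⟩ * π)) u := by
        rw [map_mul, V_mul, ← hπ, ← V_mul, ← V_mul, ← h3]
        congr 2
        group
      show V F g (V F (ψ a) u) ∈ S
      rw [h4]
      exact hmem _
    | zero => rw [map_zero]; exact zero_mem _
    | add a b _ _ ha hb => rw [map_add]; exact add_mem ha hb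
    | smul c a _ ha => rw [map_smul]; exact S.smul_mem c ha
  · intro h
    have h3 := hmem 1
    rw [h, map_one, V_one, Submodule.mem_bot] at h3
    exact hu0 h3

/-- the 3-cycle -/
def c3 : A8 := ⟨c[5, 6, 7], by rw [mem_alternatingGroup]; decide +kernel⟩

theorem type_c3 : (c3 : Perm (Fin 8)).cycleType = {3} := by decide +kernel

theorem c3_pow : c3 ^ 3 = 1 := by decide +kernel

/-- the symmetry -/
def gs : A8 := ⟨swap 6 7 * swap 0 1, by rw [mem_alternatingGroup]; decide +kernel⟩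

/-- **the pattern `4 + 4* + 6⁸` is impossible** -/
theorem false_of [Finite F] (h2 : (2 : F) = 0) (hM : MaxAlt H 8 φ) (hψ : Lift φ ψ)
    (h3 : ∀ a : A8, (a : Perm (Fin 8)).cycleType = {3} → ev (V F (ψ a)) 1 = 32)
    (h33 : ∀ a : A8, (a : Perm (Fin 8)).cycleType = {3, 3} → ev (V F (ψ a)) 1 = 20)
    (h5 : ∀ a : A8, (a : Perm (Fin 8)).cycleType = {5} → ev (V F (ψ a)) 1 = 16)
    (h53 : ∀ a : A8, (a : Perm (Fin 8)).cycleType = {5, 3} → ev (V F (ψ a)) 1 = 0) : False := by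
  obtain ⟨U0, hU0, hdim, hU0H⟩ := exists_U0 h2 hM hψ (dim_US h3 h33 h5)
  obtain ⟨ω, l, hω, hl⟩ := line_F h2 (x := ψ c3) (by rw [← map_pow, c3_pow, map_one]) (h3 c3 type_c3)
  let K := AlgebraicClosure F
  let f : F →+* K := algebraMap F K
  have h2K : (2 : K) = 0 := by
    have h := congrArg f h2
    rwa [map_ofNat, map_zero] at h
  -- the action of `c3` and `gs`
  have a5 : (c3 : Perm (Fin 8)) 5 = 6 := by decide +kernel
  have a6 : (c3 : Perm (Fin 8)) 6 = 7 := by decide +kernel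
  have a7 : (c3 : Perm (Fin 8)) 7 = 5 := by decide +kernel
  have b5 : (gs : Perm (Fin 8)) 5 = 5 := by decide +kernel
  have b6 : (gs : Perm (Fin 8)) 6 = 7 := by decide +kernel
  have b7 : (gs : Perm (Fin 8)) 7 = 6 := by decide +kernel
  have x0 : ∀ u ∈ US ψ, W ψ u 6 7 = u := fun u hu => W_self hu
  have x1 : ∀ u ∈ US ψ, V F (ψ c3) u = W ψ u 7 5 := by
    intro u hu
    have h := W_act hu c3 (i := 6) (j := 7) (by decide)
    rw [a6, a7, W_self hu] at h
    exact h
  have x2 : ∀ u ∈ US ψ, V F (ψ c3) (V F (ψ c3) u) = W ψ u 5 6 := by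
    intro u hu
    rw [x1 u hu, W_act hu c3 (by decide), a5, a7]
  have hsum : ∀ u ∈ US ψ, u + V F (ψ c3) u + V F (ψ c3) (V F (ψ c3) u) = 0 := by
    intro u hu
    rw [x1 u hu]
    have h := tri h53 hu (i := 6) (j := 7) (k := 5) (by decide) (by decide) (by decide)
    rw [x0 u hu] at h
    rw [W_act hu c3 (by decide), a7, a5]
    exact h
  have y0 : ∀ u ∈ US ψ, V F (ψ gs) u = u := by
    intro u hu
    have h := W_act hu gs (i := 6) (j := 7) (by decide)
    rw [b6, b7, W_self hu, W_symm h2 h53 hu (by decide), W_self hu] at h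
    exact h
  have y1 : ∀ u ∈ US ψ, V F (ψ gs) (W ψ u 7 5) = W ψ u 5 6 := by
    intro u hu
    rw [W_act hu gs (by decide), b7, b5, W_symm h2 h53 hu (by decide)]
  have y2 : ∀ u ∈ US ψ, V F (ψ gs) (W ψ u 5 6) = W ψ u 7 5 := by
    intro u hu
    rw [W_act hu gs (by decide), b6, b5, W_symm h2 h53 hu (by decide)]
  -- the combination
  let Φ : (D1 → F) → (chevE7.Idx → F) → K := fun u z => f (Mu F u z) + ω * f (Mu F (W ψ u 7 5) z) + ω ^ 2 * f (Mu F (W ψ u 5 6) z)
  have hΦ : ∀ u ∈ US ψ, ∃ q : K, ∀ z, Φ u z = q * l z := by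
    intro u hu
    obtain ⟨q, hq⟩ := hl u (hsum u hu)
    refine ⟨q, fun z => ?_⟩
    have h := hq z
    rw [x2 u hu, x1 u hu] at h
    exact h
  have hg : ∀ u ∈ US ψ, ∀ z, Φ u (L F (ψ gs)⁻¹ z) = f (Mu F u z) + ω * f (Mu F (W ψ u 5 6) z) + ω ^ 2 * f (Mu F (W ψ u 7 5) z) := by
    intro u hu z
    have key : ∀ y, Mu F y (L F (ψ gs)⁻¹ z) = Mu F (V F (ψ gs) y) z := by
      intro y
      rw [Mu_V']; rfl
    show f (Mu F u _) + ω * f (Mu F (W ψ u 7 5) _) + ω ^ 2 * f (Mu F (W ψ u 5 6) _) = _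
    rw [key, key, key, y0 u hu, y1 u hu, y2 u hu]
  have hω1 : ω - ω ^ 2 ≠ 0 := by
    intro h
    have h4 : ω * (1 - ω) = 0 := by linear_combination h
    rcases mul_eq_zero.1 h4 with h5 | h5
    · rw [h5] at hω
      norm_num at hω
    · have h6 : ω = 1 := (sub_eq_zero.1 h5).symm
      rw [h6] at hω
      have h7 : (1 : K) = 0 := by linear_combination hω - h2K
      exact one_ne_zero h7
  -- vectors with zero combination
  have hfin : ∀ u ∈ U0, u ≠ 0 → (∀ z, Φ u z = 0) → False := by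
    intro u hu hu0 hzero
    refine final h2 hM hψ h53 (hU0 hu) hu0 (fun g hgH => hU0H g hgH u hu) ?_
    rw [x0 u (hU0 hu)]
    refine LinearMap.ext fun z => ?_
    have e1 : f (Mu F u z) + ω * f (Mu F (W ψ u 7 5) z) + ω ^ 2 * f (Mu F (W ψ u 5 6) z) = 0 := hzero z
    have e2 := hzero (L F (ψ gs)⁻¹ z)
    rw [hg u (hU0 hu)] at e2
    have e3 : (ω - ω ^ 2) * (f (Mu F (W ψ u 7 5) z) - f (Mu F (W ψ u 5 6) z)) = 0 := by linear_combination e1 - e2
    have e4 := sub_eq_zero.1 ((mul_eq_zero.1 e3).resolve_left hω1)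
    have e5 : f (Mu F u z) = f (Mu F (W ψ u 7 5) z) := by
      rw [← e4] at e1
      linear_combination e1 - (f (Mu F (W ψ u 7 5) z)) * hω
    exact f.injective e5
  by_cases hall : ∀ u ∈ U0, ∀ z, Φ u z = 0
  · have hnt : U0 ≠ ⊥ := by
      rintro rfl
      rw [finrank_bot] at hdim
      omega
    obtain ⟨u, hu, hu0⟩ := Submodule.exists_mem_ne_zero_of_ne_bot hnt
    exact hfin u hu hu0 (hall u hu)
  push Not at hall
  obtain ⟨u0, hu0, z0, hz0⟩ := hall
  -- the Frobenius endomorphism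
  have := Fintype.ofFinite F
  obtain ⟨s, hs⟩ := exists_frob f
  have hs' : ∀ t, s t = t ^ Fintype.card F := fun t => by rw [hs, Nat.card_eq_fintype_card]
  have hfix : ∀ t, s t = t ↔ t ∈ Set.range f := Cfsg.Agent.BpExc.Emb.fix_iff_range hs'
  have hsf : ∀ t, s (f t) = f t := fun t => (hfix _).2 ⟨t, rfl⟩
  have hω3 : ω ^ 3 = 1 := by linear_combination (ω - 1) * hω
  have hsω : s ω = ω ∨ s ω = ω ^ 2 := by
    have h := congrArg s hω
    rw [map_add, map_add, map_pow, map_one, map_zero] at h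
    have h4 : (s ω - ω) * (s ω - ω ^ 2) = 0 := by linear_combination h - (s ω) * hω + hω3
    rcases mul_eq_zero.1 h4 with h5 | h5
    · exact Or.inl (sub_eq_zero.1 h5)
    · exact Or.inr (sub_eq_zero.1 h5)
  obtain ⟨q0, hq0⟩ := hΦ u0 (hU0 hu0)
  have hq0' : q0 ≠ 0 := by
    rintro rfl
    exact hz0 (by rw [hq0, zero_mul])
  have hQ : ∀ u : ↥U0, ∃ q : F, ∀ z, Φ u z = f q * Φ u0 z := by
    intro u
    obtain ⟨q1, hq1⟩ := hΦ u (hU0 u.2)
    have hr : ∀ z, Φ u z = (q1 / q0) * Φ u0 z := by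
      intro z
      rw [hq1, hq0, ← mul_assoc, div_mul_cancel₀ _ hq0']
    have hsr : s (q1 / q0) = q1 / q0 := by
      rcases hsω with h | h
      · have key : ∀ (v : D1 → F) (z : chevE7.Idx → F), s (Φ v z) = Φ v z := by
          intro v z
          show s (f (Mu F v z) + ω * f (Mu F (W ψ v 7 5) z) + ω ^ 2 * f (Mu F (W ψ v 5 6) z)) = _
          rw [map_add, map_add, map_mul, map_mul, map_pow, hsf, hsf, hsf, h]
        have h4 := congrArg s (hr z0)
        rw [map_mul, key, key, hr z0] at h4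
        exact (mul_right_cancel₀ hz0 h4).symm
      · have key : ∀ v ∈ US ψ, ∀ z : chevE7.Idx → F, s (Φ v z) = Φ v (L F (ψ gs)⁻¹ z) := by
          intro v hv z
          rw [hg v hv]
          show s (f (Mu F v z) + ω * f (Mu F (W ψ v 7 5) z) + ω ^ 2 * f (Mu F (W ψ v 5 6) z)) = _
          rw [map_add, map_add, map_mul, map_mul, map_pow, hsf, hsf, hsf, h]
          linear_combination (ω * f (Mu F (W ψ v 5 6) z)) * hω3
        have h4 := congrArg s (hr z0)
        rw [map_mul, key u (hU0 u.2), key u0 (hU0 hu0), hr (L F (ψ gs)⁻¹ z0)] at h4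
        have h5 : Φ u0 (L F (ψ gs)⁻¹ z0) ≠ 0 := by
          rw [← key u0 (hU0 hu0)]
          exact (map_ne_zero s).2 hz0
        exact (mul_right_cancel₀ h5 h4).symm
    obtain ⟨q, hq⟩ := (hfix _).1 hsr
    exact ⟨q, fun z => by rw [hr, hq]⟩
  choose Q hQ using hQ
  -- the polar form
  have hW : ∀ (v w : D1 → F) (i j : Fin 8), W ψ (v + w) i j = W ψ v i j + W ψ w i j := by
    intro v w i j
    unfold W
    split_ifs
    · rw [map_add]
    · rw [add_zero]
  have hWs : ∀ (c : F) (v : D1 → F) (i j : Fin 8), W ψ (c • v) i j = c • W ψ v i j := by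
    intro c v i j
    unfold W
    split_ifs
    · rw [map_smul]
    · rw [smul_zero]
  let B0 : (D1 → F) → (D1 → F) → K := fun x y => f (Pf x y z0) + ω * f (Pf (W ψ x 7 5) (W ψ y 7 5) z0) +
    ω ^ 2 * f (Pf (W ψ x 5 6) (W ψ y 5 6) z0)
  have hB0 : ∀ x y, Φ (x + y) z0 = Φ x z0 + Φ y z0 + B0 x y := by
    intro x y
    show f (Mu F (x + y) z0) + ω * f (Mu F (W ψ (x + y) 7 5) z0) + ω ^ 2 * f (Mu F (W ψ (x + y) 5 6) z0) =
      (f (Mu F x z0) + ω * f (Mu F (W ψ x 7 5) z0) + ω ^ 2 * f (Mu F (W ψ x 5 6) z0)) +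
      (f (Mu F y z0) + ω * f (Mu F (W ψ y 7 5) z0) + ω ^ 2 * f (Mu F (W ψ y 5 6) z0)) +
      (f (Pf x y z0) + ω * f (Pf (W ψ x 7 5) (W ψ y 7 5) z0) + ω ^ 2 * f (Pf (W ψ x 5 6) (W ψ y 5 6) z0))
    rw [hW, hW, Pf_eq, Pf_eq, Pf_eq]
    simp only [map_sub]
    ring
  have hb : ∀ x y : ↥U0, f (Q (x + y) - Q x - Q y) * Φ u0 z0 = B0 x y := by
    intro x y
    have e1 := hQ (x + y) z0
    have e2 := hQ x z0
    have e3 := hQ y z0
    have e4 := hB0 (x : D1 → F) y
    rw [Submodule.coe_add, e4, e2, e3] at e1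
    rw [map_sub, map_sub]
    linear_combination -e1
  have hBadd : ∀ x y y' : D1 → F, B0 x (y + y') = B0 x y + B0 x y' := by
    intro x y y'
    show f (Pf x (y + y') z0) + ω * f (Pf (W ψ x 7 5) (W ψ (y + y') 7 5) z0) + ω ^ 2 * f (Pf (W ψ x 5 6) (W ψ (y + y') 5 6) z0) =
      (f (Pf x y z0) + ω * f (Pf (W ψ x 7 5) (W ψ y 7 5) z0) + ω ^ 2 * f (Pf (W ψ x 5 6) (W ψ y 5 6) z0)) +
      (f (Pf x y' z0) + ω * f (Pf (W ψ x 7 5) (W ψ y' 7 5) z0) + ω ^ 2 * f (Pf (W ψ x 5 6) (W ψ y' 5 6) z0))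
    rw [hW, hW, Pf_add_right, Pf_add_right, Pf_add_right]
    simp only [map_add]
    ring
  have hBsmul : ∀ (c : F) (x y : D1 → F), B0 x (c • y) = f c * B0 x y := by
    intro c x y
    show f (Pf x (c • y) z0) + ω * f (Pf (W ψ x 7 5) (W ψ (c • y) 7 5) z0) + ω ^ 2 * f (Pf (W ψ x 5 6) (W ψ (c • y) 5 6) z0) =
      f c * (f (Pf x y z0) + ω * f (Pf (W ψ x 7 5) (W ψ y 7 5) z0) + ω ^ 2 * f (Pf (W ψ x 5 6) (W ψ y 5 6) z0))
    rw [hWs, hWs, Pf_smul_right, Pf_smul_right, Pf_smul_right]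
    simp only [map_mul]
    ring
  let b : ↥U0 → ↥U0 →ₗ[F] F := fun x =>
    { toFun := fun y => Q (x + y) - Q x - Q y
      map_add' := fun y y' => by
        apply f.injective
        apply mul_right_cancel₀ hz0
        rw [hb, map_add, add_mul, hb, hb, Submodule.coe_add, hBadd]
      map_smul' := fun c y => by
        apply f.injective
        apply mul_right_cancel₀ hz0
        rw [hb, Submodule.coe_smul, hBsmul, RingHom.id_apply, smul_eq_mul, map_mul, mul_assoc, hb] }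
  obtain ⟨v, hv0, hv⟩ := exists_zero h2 hdim Q b (fun x y => by
    show Q (x + y) = Q x + Q y + (Q (x + y) - Q x - Q y)
    ring) (fun c x => by
    apply f.injective
    apply mul_right_cancel₀ hz0
    rw [← hQ (c • x) z0, Submodule.coe_smul, map_mul, map_pow, mul_assoc, ← hQ x z0]
    show f (Mu F (c • (x : D1 → F)) z0) + ω * f (Mu F (W ψ (c • (x : D1 → F)) 7 5) z0) +
      ω ^ 2 * f (Mu F (W ψ (c • (x : D1 → F)) 5 6) z0) = f c ^ 2 * (f (Mu F (x : D1 → F) z0) +
      ω * f (Mu F (W ψ (x : D1 → F) 7 5) z0) + ω ^ 2 * f (Mu F (W ψ (x : D1 → F) 5 6) z0))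
    rw [hWs, hWs, Mu_smul, Mu_smul, Mu_smul, LinearMap.smul_apply, LinearMap.smul_apply, LinearMap.smul_apply, smul_eq_mul,
      smul_eq_mul, smul_eq_mul]
    simp only [map_mul, map_pow]
    ring)
  refine hfin v v.2 (fun h => hv0 (Subtype.ext h)) fun z => ?_
  rw [hQ v z, hv, map_zero, zero_mul]

end main

end Cfsg.Agent.R2.T1.T1p
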