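import Mathlib
import Cfsg.Agent.H251.E6.Up

/-!
# T1 (S5771, p = 2): permutations of 8 points, quadratic forms (helper24)

* `exists_up` : the image of the embedding `A_n → A_(n+1)`;
* `exists3` : `A_8` is 3-transitive;
* `sym_of_tri` : functions on ordered pairs with values in an elementary abelian 2-group, with zero triangle sums, are symmetric;
* `exists_zero` : quadratic forms in at least three variables over a finite field of characteristic 2.
-/

set_option autoImplicit false

namespace Cfsg.Agent.R2.T1.T1p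

open Equiv Equiv.Perm

/-! ### permutations -/

section up
variable {n : ℕ}
open Cfsg.Agent.H251.E6

theorem exists_up {a : ↥(alternatingGroup (Fin (n + 1)))} (ha : (a : Perm (Fin (n + 1))) (Fin.last n) = Fin.last n) :
    ∃ b : ↥(alternatingGroup (Fin n)), up b = a := by
  have h1 : ∀ x : Fin (n + 1), (a : Perm (Fin (n + 1))) x ≠ Fin.last n ↔ x ≠ Fin.last n := by
    intro x
    rw [not_iff_not]
    constructor
    · intro h
      rw [← ha] at h
      exact (a : Perm (Fin (n + 1))).injective h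
    · rintro rfl
      exact ha
  set b : Perm (Fin n) := (finSuccAboveEquiv (Fin.last n)).symm.permCongr ((a : Perm (Fin (n + 1))).subtypePerm h1) with hb
  have h2 : upP b = a := by
    rw [upP, Perm.extendDomain, hb]
    have h3 : (finSuccAboveEquiv (Fin.last n)).permCongr ((finSuccAboveEquiv (Fin.last n)).symm.permCongr
        ((a : Perm (Fin (n + 1))).subtypePerm h1)) = (a : Perm (Fin (n + 1))).subtypePerm h1 := by
      ext x
      simp [Equiv.permCongr_apply]
    apply Equiv.ext
    intro x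
    by_cases hx : x = Fin.last n
    · subst hx
      rw [Perm.subtypeCongr.right_apply _ _ (by simp)]
      exact ha.symm
    · rw [Perm.subtypeCongr.left_apply (p := fun x => x ≠ Fin.last n) (a := x) _ _ hx]
      have := congrArg (fun σ => (σ ⟨x, hx⟩ : Fin (n + 1))) h3
      exact this
  refine ⟨⟨b, ?_⟩, Subtype.ext h2⟩
  rw [mem_alternatingGroup]
  have h3 : sign (upP b) = 1 := by rw [h2]; exact mem_alternatingGroup.1 a.2
  rwa [upP, sign_extendDomain] at h3

end up

section trans

theorem ext_step {α : Type*} [DecidableEq α] (σ : Perm α) (x y : α) : ∃ σ' : Perm α, σ' x = y ∧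
    ∀ z, z ≠ x → σ z ≠ y → σ' z = σ z := by
  refine ⟨swap (σ x) y * σ, ?_, fun z hz hz' => ?_⟩
  · rw [Perm.mul_apply, swap_apply_left]
  · rw [Perm.mul_apply, swap_apply_of_ne_of_ne (fun h => hz (σ.injective h)) hz']

/-- `A_8` is 3-transitive -/
theorem exists3 {i j k : Fin 8} (hij : i ≠ j) (hjk : j ≠ k) (hik : i ≠ k) :
    ∃ a : ↥(alternatingGroup (Fin 8)), (a : Perm (Fin 8)) 5 = i ∧ (a : Perm (Fin 8)) 6 = j ∧ (a : Perm (Fin 8)) 7 = k := by
  obtain ⟨σ1, h1, -⟩ := ext_step (1 : Perm (Fin 8)) 7 k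
  obtain ⟨σ2, h2, h2'⟩ := ext_step σ1 6 j
  obtain ⟨σ3, h3, h3'⟩ := ext_step σ2 5 i
  have e7 : σ2 7 = k := by rw [h2' 7 (by decide) (by rw [h1]; exact hjk.symm), h1]
  have f7 : σ3 7 = k := by rw [h3' 7 (by decide) (by rw [e7]; exact hik.symm), e7]
  have f6 : σ3 6 = j := by rw [h3' 6 (by decide) (by rw [h2]; exact hij.symm), h2]
  rcases Int.units_eq_one_or (sign σ3) with h | h
  · exact ⟨⟨σ3, mem_alternatingGroup.2 h⟩, h3, f6, f7⟩
  · refine ⟨⟨σ3 * swap 0 1, ?_⟩, ?_, ?_, ?_⟩
    · rw [mem_alternatingGroup, Perm.sign_mul, h, sign_swap (by decide)]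
      decide
    · rw [Perm.mul_apply, swap_apply_of_ne_of_ne (by decide) (by decide)]; exact h3
    · rw [Perm.mul_apply, swap_apply_of_ne_of_ne (by decide) (by decide)]; exact f6
    · rw [Perm.mul_apply, swap_apply_of_ne_of_ne (by decide) (by decide)]; exact f7

theorem exists2 {j k : Fin 8} (hjk : j ≠ k) :
    ∃ a : ↥(alternatingGroup (Fin 8)), (a : Perm (Fin 8)) 6 = j ∧ (a : Perm (Fin 8)) 7 = k := by
  obtain ⟨i, hi, hi'⟩ : ∃ i : Fin 8, i ≠ j ∧ i ≠ k := by
    revert j k; decide
  obtain ⟨a, -, h⟩ := exists3 hi hjk hi'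
  exact ⟨a, h⟩

theorem two_more (i j k : Fin 8) : ∃ l m : Fin 8, l ≠ i ∧ l ≠ j ∧ l ≠ k ∧ m ≠ i ∧ m ≠ j ∧ m ≠ k ∧ l ≠ m := by
  revert i j k; decide +kernel

theorem two_more4 (i j k h : Fin 8) : ∃ l m : Fin 8, l ≠ i ∧ l ≠ j ∧ l ≠ k ∧ l ≠ h ∧ m ≠ i ∧ m ≠ j ∧ m ≠ k ∧ m ≠ h ∧
    l ≠ m := by
  revert i j k h; decide +kernel

end trans

section sym
variable {A : Type*} [AddCommGroup A] {W : Fin 8 → Fin 8 → A}

/-- zero triangle sums -/
theorem sym_of_tri (h2 : ∀ a : A, a + a = 0)
    (T : ∀ i j k, i ≠ j → j ≠ k → i ≠ k → W i j + W j k + W k i = 0) {i j : Fin 8} (hij : i ≠ j) : W i j = W j i := by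
  have hneg : ∀ a : A, -a = a := fun a => neg_eq_of_add_eq_zero_left (h2 a)
  -- `s j k = s j l`
  have key : ∀ j k l : Fin 8, j ≠ k → j ≠ l → k ≠ l → W j k + W k j = W j l + W l j := by
    intro j k l hjk hjl hkl
    obtain ⟨i, m, hi1, hi2, hi3, hm1, hm2, hm3, him⟩ := two_more j k l
    have t1 := T j k i hjk hi2.symm hi1.symm
    have t2 := T j l i hjl hi3.symm hi1.symm
    have t3 := T k i m hi2.symm him hm2.symm
    have t4 := T l i m hi3.symm him hm3.symm
    have t5 := T k j m hjk.symm hm1.symm hm2.symm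
    have t6 := T l j m hjl.symm hm1.symm hm3.symm
    have e : (W j k + W k j) - (W j l + W l j) = (W j k + W k i + W i j) - (W j l + W l i + W i j) -
        ((W k i + W i m + W m k) - (W l i + W i m + W m l)) + ((W k j + W j m + W m k) - (W l j + W j m + W m l)) := by
      abel
    rw [t1, t2, t3, t4, t5, t6] at e
    simp only [sub_zero, add_zero] at e
    exact sub_eq_zero.1 e
  obtain ⟨k, hki, hkj⟩ : ∃ k : Fin 8, k ≠ i ∧ k ≠ j := by
    clear key T hij
    revert i j; decide
  have a1 := key i j k hij hki.symm hkj.symm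
  have a2 := key j i k hij.symm hkj.symm hki.symm
  have t1 := T i j k hij hkj.symm hki.symm
  have t2 := T i k j hki.symm hkj hij
  have e : (W i j + W j i) = (W i j + W j k + W k i) + (W i k + W k j + W j i) - (W j k + W k j) - (W i k + W k i) := by
    abel
  rw [t1, t2, ← a1, ← a2] at e
  have e2 : W i j + W j i = 0 := by
    have e3 : W j i + W i j = W i j + W j i := add_comm _ _
    rw [e3] at e
    rw [e, add_zero, zero_sub, sub_eq_add_neg, hneg]
    exact h2 _
  rw [← hneg (W j i)]
  exact eq_neg_of_add_eq_zero_left e2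

end sym

/-! ### quadratic forms -/

/-- quadratic forms in at least three variables over a finite field of characteristic 2 -/
theorem exists_zero {F : Type*} [Field F] [Finite F] (h2 : (2 : F) = 0) {M : Type*} [AddCommGroup M] [Module F M]
    [FiniteDimensional F M] (hdim : 3 ≤ Module.finrank F M) (Q : M → F) (b : M → M →ₗ[F] F)
    (hQ : ∀ x y, Q (x + y) = Q x + Q y + b x y) (hs : ∀ (c : F) x, Q (c • x) = c ^ 2 * Q x) : ∃ x ≠ 0, Q x = 0 := by
  have hnt : Nontrivial M := Module.nontrivial_of_finrank_pos (R := F) (by omega)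
  obtain ⟨r, hr⟩ := exists_ne (0 : M)
  by_cases hQr : Q r = 0
  · exact ⟨r, hr, hQr⟩
  have hk : 2 ≤ Module.finrank F (LinearMap.ker (b r)) := by
    have h1 := LinearMap.finrank_range_add_finrank_ker (b r)
    have h3 : Module.finrank F (LinearMap.range (b r)) ≤ 1 := (Submodule.finrank_le _).trans (by rw [Module.finrank_self])
    omega
  obtain ⟨v, hv, hvr⟩ : ∃ v ∈ LinearMap.ker (b r), v ∉ Submodule.span F {r} := by
    by_contra hcon
    push Not at hcon
    have h1 := Submodule.finrank_mono (show LinearMap.ker (b r) ≤ Submodule.span F {r} from hcon)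
    rw [finrank_span_singleton hr] at h1
    omega
  have hchar : ringChar F = 2 := by
    have h3 : ((2 : ℕ) : F) = 0 := by exact_mod_cast h2
    have h4 := ringChar.dvd h3
    rcases (Nat.dvd_prime Nat.prime_two).1 h4 with h5 | h5
    · exact absurd h5 (CharP.ringChar_ne_one)
    · exact h5
  have := Fintype.ofFinite F
  obtain ⟨α, hα⟩ := FiniteField.isSquare_of_char_two hchar (Q v / Q r)
  refine ⟨α • r + v, ?_, ?_⟩
  · intro h
    apply hvr
    have h3 : v = (-α) • r := by rw [neg_smul]; exact eq_neg_of_add_eq_zero_right h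
    rw [h3]
    exact Submodule.smul_mem _ _ (Submodule.mem_span_singleton_self r)
  · have h3 := hQ v (α • r)
    have h4 := hQ r v
    have hbv : b r v = 0 := hv
    -- the polar form is symmetric
    have h5 : b v (α • r) = α * b v r := by rw [map_smul, smul_eq_mul]
    have h6 : b v r = b r v := by
      have e1 := hQ v r
      have e2 := hQ r v
      rw [add_comm] at e1
      rw [e1] at e2
      linear_combination e2
    rw [add_comm, h3, hs, h5, h6, hbv, mul_zero, add_zero]
    have h7 : α ^ 2 * Q r = Q v := by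
      rw [pow_two, ← hα, div_mul_cancel₀ _ hQr]
    rw [h7]
    linear_combination (Q v) * h2

end Cfsg.Agent.R2.T1.T1p
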